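import Cfsg.Agent.GPF.Main
import Cfsg.Agent.S1329
import Cfsg.Agent.S0215
import Cfsg.Agent.SigO.Con2

set_option autoImplicit false
set_option linter.all false

/-!
The inputs of the product fusion theorem.
-/

namespace Cfsg.Agent.GPF

open Subgroup
open scoped commutatorElement Pointwise

universe u

theorem gen29 (G : Type u) [Group G] [Finite G] : Gen29 G := by
  haveI : Fact (Nat.Prime 2) := ⟨Nat.prime_two⟩
  intro A Y hA hA4 hY hAY hYA K hK
  have hA2 : IsPGroup 2 A := SigF.isPGroup_of_elem hA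
  rw [Cfsg.Agent.S1329.result A A Y hA2 hA.1 le_rfl hY hAY hYA]
  refine iSup_le ?_
  rintro ⟨B, hB, hBc⟩
  have hne : B ≠ ⊥ := by
    rintro rfl
    have h1 : ((⊥ : Subgroup G).subgroupOf A) = ⊥ := Subgroup.bot_subgroupOf A
    have h2 : ((⊥ : Subgroup G).subgroupOf A).Normal := by rw [h1]; infer_instance
    have h3 : IsCyclic (A ⧸ (⊥ : Subgroup G).subgroupOf A) := @hBc h2
    have h4 : IsCyclic A := by
      have e : A ⧸ (⊥ : Subgroup G).subgroupOf A ≃* A :=
        (QuotientGroup.quotientMulEquivOfEq h1).trans QuotientGroup.quotientBot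
      exact isCyclic_of_surjective e.toMonoidHom e.surjective
    obtain ⟨g, hg⟩ := h4
    have h5 : (g : A) ^ 2 = 1 := Subtype.ext (by push_cast; exact hA.2 g g.2)
    have h6 : orderOf g = Nat.card A := orderOf_eq_card_of_forall_mem_zpowers hg
    have h7 : orderOf g ∣ 2 := orderOf_dvd_of_pow_eq_one h5
    rw [h6] at h7
    have := Nat.le_of_dvd (by norm_num) h7
    omega
  obtain ⟨⟨a, ha⟩, ha0⟩ := (Subgroup.ne_bot_iff_exists_ne_one).1 hne
  have ha1 : a ≠ 1 := fun h => ha0 (Subtype.ext h)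
  refine le_trans (inf_le_inf_left _ (commutator_mono (inf_le_inf_left _ ?_) le_rfl)) (hK a (hB ha) ha1)
  exact centralizer_le (Set.singleton_subset_iff.2 ha)

theorem sft2 (G : Type u) [Group G] [Finite G] : SFT2 G := by
  haveI : Fact (Nat.Prime 2) := ⟨Nat.prime_two⟩
  intro A θ hA hA8 hθ hodd
  exact Cfsg.Agent.SigO.isComplete_of_odd hA (by norm_num; exact hA8) hθ hodd

theorem inp : Inp.{u} where
  g29 := fun G _ _ => gen29 G
  sft := fun G _ _ => sft2 G
  zst := fun G _ _ P x h1 h2 h3 => Cfsg.Agent.S0215.result P x h1 h2 h3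

/-- The product fusion theorem. -/
theorem pt_comm {G : Type u} [Group G] [Finite G] {S T : Set G} (h : PT S T) :
    ⁅closure S, closure T⁆ ≤ Cfsg.oddCore G := main inp h

end Cfsg.Agent.GPF
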